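import Cfsg.Agent.H454.Reg.Two.Semi
import Cfsg.Agent.S0799
import Cfsg.Agent.H454.Reg.Tools
import Cfsg.Agent.ClassicalGeometry.SLTwoFour
import Cfsg.Agent.Lib.FieldAutCard

/-!
# S3691, row `PSL₂(q)`: arithmetic (helper454)
-/

set_option autoImplicit false
set_option linter.unusedVariables false

namespace Cfsg.Agent.H454.Reg.Two

theorem bound_two {f q : ℕ} (hq : 29823000000 < q) (h : 2 ^ f ≤ q) : 10 ^ 7 * f ^ 2 ≤ q ∧ 8 * f ^ 3 < q := by
  rcases Nat.lt_or_ge f 54 with h1 | h1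
  · have h2 : f ≤ 53 := by omega
    have h3 : f ^ 2 ≤ 53 ^ 2 := Nat.pow_le_pow_left h2 2
    have h4 : f ^ 3 ≤ 53 ^ 3 := Nat.pow_le_pow_left h2 3
    norm_num at h3 h4 ⊢
    omega
  · have h2 : 10 ^ 7 * f ^ 2 ≤ 2 ^ f ∧ 8 * f ^ 3 < 2 ^ f := by
      induction f, h1 using Nat.le_induction with
      | base => norm_num
      | succ n hn ih =>
        obtain ⟨i1, i2⟩ := ih (le_trans (Nat.pow_le_pow_right (by norm_num) (Nat.le_succ n)) h)
        have e : 2 ^ (n + 1) = 2 * 2 ^ n := by ring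
        rw [e]
        have e1 : (n + 1) ^ 2 ≤ 2 * n ^ 2 := by nlinarith
        have e2 : (n + 1) ^ 3 ≤ 2 * n ^ 3 := by nlinarith
        constructor
        · omega
        · omega
    exact ⟨h2.1.trans h, lt_of_lt_of_le h2.2 h⟩

/-- the order type of a proper subgroup of `PSL₂(q)` (with side information `P`, `Q`) -/
def Typ (q d x : ℕ) (P Q : Prop) : Prop :=
  (x * d ∣ 2 * (q + 1) ∧ P) ∨ x * d ∣ 2 * (q - 1) ∨ (x * d ∣ q * (q - 1) ∧ Q) ∨ x ≤ 60 ∨
    (∃ r, r ^ 2 = q ∧ x ∣ r * (r ^ 2 - 1)) ∨ (∃ r m, 3 ≤ m ∧ r ^ m = q ∧ x ∣ r * (r ^ 2 - 1))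

section

variable {q d x y e f : ℕ}

/-- both in the class `x ∣ 2 q (q - 1)` -/
theorem both_L (hq : 1 < q) (hx : x ∣ 2 * (q * (q - 1))) (hy : y ∣ 2 * (q * (q - 1))) (h : x * y * e * d = q * (q - 1) * (q + 1)) :
    q + 1 ≤ 8 * (e * d) := by
  have hpos : 0 < q * (q - 1) := Nat.mul_pos (by omega) (by omega)
  have hne : 0 < e * d := by
    rcases Nat.eq_zero_or_pos (e * d) with h0 | h0
    · have : x * y * e * d = 0 := by rw [mul_assoc (x * y), h0, mul_zero]
      rw [this] at h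
      have h3 : 0 < q * (q - 1) * (q + 1) := Nat.mul_pos hpos (Nat.succ_pos q)
      omega
    · exact h0
  obtain ⟨a, ha⟩ := hx
  obtain ⟨b, hb⟩ := hy
  -- `(q + 1) a b = 4 q (q - 1) e d`
  have h1 : (q * (q - 1)) * ((q + 1) * (a * b)) = (q * (q - 1)) * (4 * (q * (q - 1)) * (e * d)) := by
    calc (q * (q - 1)) * ((q + 1) * (a * b)) = (q * (q - 1) * (q + 1)) * (a * b) := by ring
      _ = x * y * e * d * (a * b) := by rw [h]
      _ = (x * a) * (y * b) * (e * d) := by ring
      _ = (2 * (q * (q - 1))) * (2 * (q * (q - 1))) * (e * d) := by rw [← ha, ← hb]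
      _ = _ := by ring
  have h2 := Nat.eq_of_mul_eq_mul_left hpos h1
  have h3 : (q + 1) ∣ 4 * (q * (q - 1)) * (e * d) := ⟨_, h2.symm⟩
  have h4 : (q + 1) ∣ q * (4 * ((q - 1) * (e * d))) := by
    have : 4 * (q * (q - 1)) * (e * d) = q * (4 * ((q - 1) * (e * d))) := by ring
    rwa [this] at h3
  have hc : Nat.Coprime (q + 1) q := by
    rw [Nat.coprime_self_add_left]
    exact Nat.coprime_one_left q
  have h5 := hc.dvd_of_dvd_mul_left h4
  have h6 : 4 * ((q - 1) * (e * d)) + 8 * (e * d) = (q + 1) * (4 * (e * d)) := by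
    obtain ⟨t, rfl⟩ : ∃ t, q = t + 1 := ⟨q - 1, by omega⟩
    simp only [Nat.add_sub_cancel]
    ring
  have h7 : (q + 1) ∣ 8 * (e * d) := (Nat.dvd_add_right h5).1 ⟨_, h6⟩
  exact Nat.le_of_dvd (by omega) h7

theorem both_M (hq : 1 < q) (hx : x ≤ 2 * (q + 1)) (hy : y ≤ 2 * (q + 1)) (h : x * y * e * d = q * (q - 1) * (q + 1)) :
    q * (q - 1) ≤ 4 * (q + 1) * (e * d) := by
  have h1 : x * y * (e * d) ≤ (2 * (q + 1)) * (2 * (q + 1)) * (e * d) :=
    Nat.mul_le_mul_right _ (Nat.mul_le_mul hx hy)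
  have h2 : (q * (q - 1)) * (q + 1) ≤ (4 * (q + 1) * (e * d)) * (q + 1) := by
    calc (q * (q - 1)) * (q + 1) = x * y * (e * d) := by rw [← h]; ring
      _ ≤ _ := h1
      _ = _ := by ring
  exact Nat.le_of_mul_le_mul_right h2 (by omega)

/-- the type `q = r ^ 2` against an order at most `2 (q + 1)` -/
theorem sub_two {r : ℕ} (hq : 1 < q) (hr : r ^ 2 = q) (hx : x ∣ r * (r ^ 2 - 1)) (hy : y ≤ 2 * (q + 1))
    (h : x * y * e * d = q * (q - 1) * (q + 1)) : r ≤ 2 * (e * d) := by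
  have hr0 : 0 < r := by
    rcases Nat.eq_zero_or_pos r with h0 | h0
    · subst h0; simp at hr; omega
    · exact h0
  have hx' : x ≤ r * (q - 1) := by
    rw [hr] at hx
    exact Nat.le_of_dvd (Nat.mul_pos hr0 (by omega)) hx
  have h1 : x * y * (e * d) ≤ (r * (q - 1)) * (2 * (q + 1)) * (e * d) := Nat.mul_le_mul_right _ (Nat.mul_le_mul hx' hy)
  have h2 : (r * (q - 1) * (q + 1)) * r ≤ (r * (q - 1) * (q + 1)) * (2 * (e * d)) := by
    calc (r * (q - 1) * (q + 1)) * r = q * (q - 1) * (q + 1) := by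
          have : r * r = q := by rw [← hr]; ring
          calc _ = (r * r) * (q - 1) * (q + 1) := by ring
            _ = _ := by rw [this]
      _ = x * y * (e * d) := by rw [← h]; ring
      _ ≤ _ := h1
      _ = _ := by ring
  exact Nat.le_of_mul_le_mul_left h2 (Nat.mul_pos (Nat.mul_pos hr0 (by omega)) (by omega))

/-- the Borel type: `q + 1` divides `y e` -/
theorem borel_dvd (hq : 1 < q) (hd : 0 < d) (hx : x * d ∣ q * (q - 1)) (h : x * y * e * d = q * (q - 1) * (q + 1)) :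
    ∃ w, q * (q - 1) = x * d * w ∧ y * e = w * (q + 1) := by
  obtain ⟨w, hw⟩ := hx
  refine ⟨w, hw, ?_⟩
  have hpos : 0 < q * (q - 1) := Nat.mul_pos (by omega) (by omega)
  have hx0 : 0 < x * d := by
    rcases Nat.eq_zero_or_pos (x * d) with h0 | h0
    · rw [hw, h0, zero_mul] at hpos; omega
    · exact h0
  apply Nat.eq_of_mul_eq_mul_left hx0
  calc x * d * (y * e) = x * y * e * d := by ring
    _ = q * (q - 1) * (q + 1) := h
    _ = x * d * (w * (q + 1)) := by rw [hw]; ring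

theorem cube_le {r m : ℕ} (hq : 1 < q) (hm : 3 ≤ m) (hr : r ^ m = q) : 0 < r ∧ r * (r ^ 2 - 1) ≤ q := by
  have hr0 : 0 < r := by
    rcases Nat.eq_zero_or_pos r with h0 | h0
    · subst h0
      rw [Nat.zero_pow (by omega)] at hr
      omega
    · exact h0
  refine ⟨hr0, ?_⟩
  calc r * (r ^ 2 - 1) ≤ r * r ^ 2 := Nat.mul_le_mul_left _ (Nat.sub_le _ _)
    _ = r ^ 3 := by ring
    _ ≤ r ^ m := Nat.pow_le_pow_right hr0 hm
    _ = q := hr

/-- the Borel type against `q = r ^ m`, `3 ≤ m` -/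
theorem borel_sub {r m : ℕ} (hq : 1 < q) (hd : 0 < d) (hx : x * d ∣ q * (q - 1)) (hm : 3 ≤ m) (hr : r ^ m = q)
    (hy : y ∣ r * (r ^ 2 - 1)) (h : x * y * e * d = q * (q - 1) * (q + 1)) : q < e ^ 3 := by
  obtain ⟨w, hw, hye⟩ := borel_dvd hq hd hx h
  obtain ⟨hr0, -⟩ := cube_le hq hm hr
  have hr1 : 1 < r := by
    rcases Nat.lt_or_ge 1 r with h1 | h1
    · exact h1
    · have : r = 1 := by omega
      rw [this, one_pow] at hr
      omega
  have hr2 : 1 < r ^ 2 := Nat.one_lt_pow (by norm_num) hr1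
  have hdvd : (q + 1) ∣ r * ((r ^ 2 - 1) * e) := by
    have h1 : (q + 1) ∣ y * e := ⟨w, by rw [hye]; ring⟩
    have h2 : y * e ∣ r * (r ^ 2 - 1) * e := Nat.mul_dvd_mul_right hy e
    rw [mul_assoc] at h2
    exact h1.trans h2
  have hc : Nat.Coprime (q + 1) r := by
    have h1 : Nat.Coprime (q + 1) q := by
      rw [Nat.coprime_self_add_left]
      exact Nat.coprime_one_left q
    have h2 : r ∣ q := by rw [← hr]; exact dvd_pow_self r (by omega)
    exact Nat.Coprime.coprime_dvd_right h2 h1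
  have h1 := hc.dvd_of_dvd_mul_left hdvd
  have he : 0 < e := by
    rcases Nat.eq_zero_or_pos e with h0 | h0
    · subst h0
      have := Nat.mul_pos (Nat.mul_pos (show 0 < q by omega) (show 0 < q - 1 by omega)) (Nat.succ_pos q)
      simp at h
      rcases h with h | h <;> omega
    · exact h0
  have h2 : q + 1 ≤ (r ^ 2 - 1) * e := Nat.le_of_dvd (Nat.mul_pos (by omega) he) h1
  have h3 : r ^ 3 ≤ q := by rw [← hr]; exact Nat.pow_le_pow_right hr0 hm
  have h4 : q < r ^ 2 * e := lt_of_lt_of_le (Nat.lt_succ_self q) (h2.trans (Nat.mul_le_mul_right _ (Nat.sub_le _ _)))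
  have h5 : r < e := by
    by_contra hle
    push Not at hle
    have : r ^ 2 * e ≤ r ^ 3 := by
      calc r ^ 2 * e ≤ r ^ 2 * r := Nat.mul_le_mul_left _ hle
        _ = r ^ 3 := by ring
    omega
  calc q < r ^ 2 * e := h4
    _ ≤ e ^ 2 * e := Nat.mul_le_mul_right _ (Nat.pow_le_pow_left h5.le 2)
    _ = e ^ 3 := by ring

theorem Typ.LM {P Q : Prop} (hq : 61 < q) (hx0 : 0 < x) (hd : 0 < d) (h : Typ q d x P Q) :
    (x ∣ 2 * (q * (q - 1)) ∧ x ≤ 2 * (q + 1)) ∨
    (x ∣ 2 * (q * (q - 1)) ∧ ((x * d ∣ q * (q - 1) ∧ Q) ∨ (∃ r, r ^ 2 = q ∧ x ∣ r * (r ^ 2 - 1)))) ∨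
    (x ≤ 2 * (q + 1) ∧ ((x * d ∣ 2 * (q + 1) ∧ P) ∨ x ≤ 60 ∨ (∃ r m, 3 ≤ m ∧ r ^ m = q ∧ x ∣ r * (r ^ 2 - 1)))) := by
  rcases h with ⟨h, hP⟩ | h | ⟨h, hQ⟩ | h | ⟨r, hr, h⟩ | ⟨r, m, hm, hr, h⟩
  · right; right
    refine ⟨?_, Or.inl ⟨h, hP⟩⟩
    exact Nat.le_of_dvd (by omega) ((Dvd.intro d rfl).trans h)
  · left
    have h1 : x ∣ 2 * (q - 1) := (Dvd.intro d rfl).trans h
    refine ⟨h1.trans ⟨q, by ring⟩, ?_⟩
    have := Nat.le_of_dvd (by omega) h1
    omega
  · right; left
    exact ⟨((Dvd.intro d rfl).trans h).trans ⟨2, by ring⟩, Or.inl ⟨h, hQ⟩⟩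
  · right; right
    exact ⟨by omega, Or.inr (Or.inl h)⟩
  · right; left
    refine ⟨?_, Or.inr ⟨r, hr, h⟩⟩
    refine h.trans ?_
    rw [hr]
    exact ⟨2 * r, by rw [← hr]; ring⟩
  · right; right
    refine ⟨?_, Or.inr (Or.inr ⟨r, m, hm, hr, h⟩)⟩
    obtain ⟨hr0, h1⟩ := cube_le (by omega) hm hr
    rcases Nat.eq_zero_or_pos (r * (r ^ 2 - 1)) with h2 | h2
    · exfalso
      have hr1 : 1 < r := by
        rcases Nat.lt_or_ge 1 r with h3 | h3
        · exact h3
        · have : r = 1 := by omega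
          rw [this, one_pow] at hr
          omega
      have hr2 : 1 < r ^ 2 := Nat.one_lt_pow (by norm_num) hr1
      have := Nat.mul_pos hr0 (show 0 < r ^ 2 - 1 by omega)
      omega
    · have := Nat.le_of_dvd h2 h
      omega

/-- one half of the final analysis -/
theorem half {P Q P' Q' : Prop} (hf : 1 ≤ f) (hq : 29823000000 < q) (h2 : 10 ^ 7 * f ^ 2 ≤ q) (h3 : 8 * f ^ 3 < q)
    (he : e ≤ 2 * f) (hd : 0 < d) (hd2 : d ≤ 2) (h : x * y * e * d = q * (q - 1) * (q + 1))
    (hx : (x * d ∣ q * (q - 1) ∧ Q) ∨ (∃ r, r ^ 2 = q ∧ x ∣ r * (r ^ 2 - 1)))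
    (hy : y ≤ 2 * (q + 1)) (hy' : (y * d ∣ 2 * (q + 1) ∧ P') ∨ y ≤ 60 ∨ (∃ r m, 3 ≤ m ∧ r ^ m = q ∧ y ∣ r * (r ^ 2 - 1))) :
    (x * d ∣ q * (q - 1) ∧ Q) ∧ (y * d ∣ 2 * (q + 1) ∧ P') := by
  have hed : e * d ≤ 4 * f := by
    calc e * d ≤ (2 * f) * 2 := Nat.mul_le_mul he hd2
      _ = 4 * f := by ring
  rcases hx with hx | ⟨r, hr, hx⟩
  · refine ⟨hx, ?_⟩
    rcases hy' with hy' | hy' | ⟨r, m, hm, hr, hy'⟩
    · exact hy'
    · exfalso
      obtain ⟨w, hw, hye⟩ := borel_dvd (by omega) hd hx.1 h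
      have hw0 : 0 < w := by
        rcases Nat.eq_zero_or_pos w with h0 | h0
        · rw [h0, mul_zero] at hw
          have := Nat.mul_pos (show 0 < q by omega) (show 0 < q - 1 by omega)
          omega
        · exact h0
      have h4 : y * e ≤ 60 * (2 * f) := Nat.mul_le_mul hy' he
      have h5 : q + 1 ≤ w * (q + 1) := Nat.le_mul_of_pos_left _ hw0
      have h6 : f ≤ f ^ 2 := Nat.le_self_pow (by norm_num) f
      omega
    · exfalso
      have h4 := borel_sub (by omega) hd hx.1 hm hr hy' h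
      have h5 : e ^ 3 ≤ (2 * f) ^ 3 := Nat.pow_le_pow_left he 3
      have h6 : (2 * f) ^ 3 = 8 * f ^ 3 := by ring
      omega
  · exfalso
    have h4 := sub_two (by omega) hr hx hy h
    have h5 : r ≤ 8 * f := by omega
    have h6 : r ^ 2 ≤ (8 * f) ^ 2 := Nat.pow_le_pow_left h5 2
    have h7 : (8 * f) ^ 2 = 64 * f ^ 2 := by ring
    have h8 : 0 < f ^ 2 := by positivity
    rw [hr, h7] at h6
    omega

/-- **the order types of the two factors** -/
theorem types {P Q P' Q' : Prop} (hf : 1 ≤ f) (hq : 29823000000 < q) (h2f : 2 ^ f ≤ q)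
    (he : e ≤ 2 * f) (hd : 0 < d) (hd2 : d ≤ 2) (h : x * y * e * d = q * (q - 1) * (q + 1)) (hx0 : 0 < x) (hy0 : 0 < y)
    (hx : Typ q d x P Q) (hy : Typ q d y P' Q') :
    ((x * d ∣ q * (q - 1) ∧ Q) ∧ (y * d ∣ 2 * (q + 1) ∧ P')) ∨ ((y * d ∣ q * (q - 1) ∧ Q') ∧ (x * d ∣ 2 * (q + 1) ∧ P)) := by
  obtain ⟨h2, h3⟩ := bound_two hq h2f
  have hed : e * d ≤ 4 * f := by
    calc e * d ≤ (2 * f) * 2 := Nat.mul_le_mul he hd2
      _ = 4 * f := by ring
  have hff : f ≤ f ^ 2 := Nat.le_self_pow (by norm_num) f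
  have h' : y * x * e * d = q * (q - 1) * (q + 1) := by rw [← h]; ring
  have noL : x ∣ 2 * (q * (q - 1)) → y ∣ 2 * (q * (q - 1)) → False := by
    intro hx hy
    have := both_L (by omega) hx hy h
    omega
  have noM : x ≤ 2 * (q + 1) → y ≤ 2 * (q + 1) → False := by
    intro hx hy
    have h4 := both_M (by omega) hx hy h
    have h5 : 4 * (q + 1) * (e * d) ≤ 4 * (q + 1) * (4 * f) := Nat.mul_le_mul_left _ hed
    have h6 : 4 * (q + 1) * (4 * f) < q * (q - 1) := by
      have h7 : 4 * (4 * f) * 4 ≤ q := by omega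
      have h8 : 4 * (q + 1) * (4 * f) * 4 ≤ (q + 1) * q := by
        calc 4 * (q + 1) * (4 * f) * 4 = (q + 1) * (4 * (4 * f) * 4) := by ring
          _ ≤ _ := Nat.mul_le_mul_left _ h7
      have h9 : (q + 1) * q < 4 * (q * (q - 1)) := by
        obtain ⟨t, rfl⟩ : ∃ t, q = t + 1 := ⟨q - 1, by omega⟩
        simp only [Nat.add_sub_cancel]
        nlinarith
      omega
    omega
  rcases hx.LM (by omega) hx0 hd with hx | hx | hx
  · rcases hy.LM (by omega) hy0 hd with hy | hy | hy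
    · exact absurd hy.1 (noL hx.1)
    · exact absurd hy.1 (noL hx.1)
    · exact absurd hy.1 (noM hx.2)
  · rcases hy.LM (by omega) hy0 hd with hy | hy | hy
    · exact absurd hy.1 (noL hx.1)
    · exact absurd hy.1 (noL hx.1)
    · left
      exact half (P := P) (Q' := Q') hf hq h2 h3 he hd hd2 h hx.2 hy.1 hy.2
  · rcases hy.LM (by omega) hy0 hd with hy | hy | hy
    · exact absurd hy.2 (noM hx.1)
    · right
      exact half (P := P') (Q' := Q) hf hq h2 h3 he hd hd2 h' hy.2 hx.1 hx.2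
    · exact absurd hy.1 (noM hx.1)

/-- the bounds in the final case -/
theorem bounds (hf : 1 ≤ f) (hq : 29823000000 < q) (h2f : 2 ^ f ≤ q) (he : e ≤ 2 * f) (hd : 0 < d) (hd2 : d ≤ 2)
    (h : x * y * e * d = q * (q - 1) * (q + 1)) (hx : x * d ∣ q * (q - 1)) (hy : y * d ∣ 2 * (q + 1)) :
    ∃ w, q * (q - 1) = x * d * w ∧ y * e = w * (q + 1) ∧ w * d ≤ 2 * e ∧ 1 ≤ w ∧ w * d < q ∧ 100 < y := by
  obtain ⟨h2, h3⟩ := bound_two hq h2f
  have hff : f ≤ f ^ 2 := Nat.le_self_pow (by norm_num) f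
  obtain ⟨w, hw, hye⟩ := borel_dvd (by omega) hd hx h
  have hw0 : 0 < w := by
    rcases Nat.eq_zero_or_pos w with h0 | h0
    · rw [h0, mul_zero] at hw
      have := Nat.mul_pos (show 0 < q by omega) (show 0 < q - 1 by omega)
      omega
    · exact h0
  have h4 : y * d ≤ 2 * (q + 1) := Nat.le_of_dvd (by omega) hy
  have h5 : (q + 1) * (w * d) ≤ (q + 1) * (2 * e) := by
    calc (q + 1) * (w * d) = (w * (q + 1)) * d := by ring
      _ = (y * d) * e := by rw [← hye]; ring
      _ ≤ (2 * (q + 1)) * e := Nat.mul_le_mul_right _ h4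
      _ = _ := by ring
  have h6 := Nat.le_of_mul_le_mul_left h5 (by omega)
  refine ⟨w, hw, hye, h6, hw0, by omega, ?_⟩
  by_contra hle
  push Not at hle
  have h7 : y * e ≤ 100 * (2 * f) := Nat.mul_le_mul hle he
  have h8 : q + 1 ≤ w * (q + 1) := Nat.le_mul_of_pos_left _ hw0
  omega

end

end Cfsg.Agent.H454.Reg.Two

/-!
# S3691, row `PSL₂(q)`: the Borel subgroup and the orders of the subgroups (helper454)
-/

set_option autoImplicit false
set_option linter.unusedSectionVars false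
set_option linter.style.haveILetI false

namespace Cfsg.Agent.H454.Reg.Two

open Matrix
open Cfsg.Agent.ClassicalGeometry.AutPSL.Root
open Cfsg.Agent.ClassicalGeometry.AutPSL.Auto
open Cfsg.Agent.ClassicalGeometry.AutPSL.Main
open Cfsg.Agent.ClassicalGeometry.AutPSL.FieldAutTwo
open Cfsg.Agent.ClassicalGeometry.AutPSL.SylowU

variable {F : Type*} [Field F]

/-- the upper triangular matrices -/
def BB (F : Type*) [Field F] : Subgroup (SpecialLinearGroup (Fin 2) F) where
  carrier := {A | (A : Matrix (Fin 2) (Fin 2) F) 1 0 = 0}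
  one_mem' := by simp
  mul_mem' := by
    rintro A B (hA : _ = _) (hB : _ = _)
    change (A * B : SpecialLinearGroup (Fin 2) F).1 1 0 = 0
    rw [Matrix.SpecialLinearGroup.coe_mul, Matrix.mul_apply, Fin.sum_univ_two, hA, hB]
    ring
  inv_mem' := by
    rintro A (hA : _ = _)
    change (A⁻¹ : SpecialLinearGroup (Fin 2) F).1 1 0 = 0
    rw [Matrix.SpecialLinearGroup.coe_inv, Matrix.adjugate_fin_two]
    simpa using hA

theorem mem_BB {A : SpecialLinearGroup (Fin 2) F} : A ∈ BB F ↔ (A : Matrix (Fin 2) (Fin 2) F) 1 0 = 0 := Iff.rfl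

/-- parametrisation -/
noncomputable def bbEquiv (F : Type*) [Field F] : Fˣ × F ≃ BB F where
  toFun v := ⟨⟨!![(v.1 : F), v.2; 0, ((v.1⁻¹ : Fˣ) : F)], by rw [Matrix.det_fin_two_of]; simp⟩, by
    change _ = _; rfl⟩
  invFun A := ⟨⟨A.1.1 0 0, A.1.1 1 1, by
      have h1 := A.1.2
      rw [Matrix.det_fin_two, show A.1.1 1 0 = 0 from A.2, mul_zero, sub_zero] at h1
      exact h1, by
      have h1 := A.1.2
      rw [Matrix.det_fin_two, show A.1.1 1 0 = 0 from A.2, mul_zero, sub_zero] at h1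
      rw [mul_comm]
      exact h1⟩, A.1.1 0 1⟩
  left_inv := by
    rintro ⟨a, b⟩
    apply Prod.ext
    · apply Units.ext; rfl
    · rfl
  right_inv := by
    intro A
    apply Subtype.ext
    apply Subtype.ext
    ext i j
    fin_cases i <;> fin_cases j
    · rfl
    · rfl
    · exact (show A.1.1 1 0 = 0 from A.2).symm
    · rfl

theorem card_BB [Fintype F] : Nat.card (BB F) = Fintype.card F * (Fintype.card F - 1) := by
  classical
  rw [← Nat.card_congr (bbEquiv F), Nat.card_prod, Nat.card_eq_fintype_card, Nat.card_eq_fintype_card, Fintype.card_units, mul_comm]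

theorem center_le_BB : Subgroup.center (SpecialLinearGroup (Fin 2) F) ≤ BB F := by
  intro A hA
  rcases Cfsg.Agent.ClassicalGeometry.PSL2Basic.mem_center_SL2_iff.1 hA with rfl | rfl
  · exact one_mem _
  · rw [mem_BB]; simp

theorem card_center [Fintype F] : Nat.card (Subgroup.center (SpecialLinearGroup (Fin 2) F)) = Nat.gcd 2 (Fintype.card F - 1) := by
  have h3 := Cfsg.Agent.ClassicalGeometry.PSL2Basic.card_PSL2_gcd (F := F)
  have h4 := Cfsg.Agent.ClassicalGeometry.PSL2Basic.card_SL2 (F := F)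
  have h5 := Subgroup.card_eq_card_quotient_mul_card_subgroup (Subgroup.center (SpecialLinearGroup (Fin 2) F))
  rw [h4, ← h3] at h5
  exact (Nat.eq_of_mul_eq_mul_left Nat.card_pos h5).symm

/-- the Borel subgroup of `PSL₂` -/
def BP (F : Type*) [Field F] : Subgroup (ProjectiveSpecialLinearGroup (Fin 2) F) := (BB F).map pr

theorem pr_mem_BP {x : SpecialLinearGroup (Fin 2) F} : pr x ∈ BP F ↔ (x : Matrix (Fin 2) (Fin 2) F) 1 0 = 0 := by
  constructor
  · rintro ⟨y, hy, hyx⟩
    obtain ⟨c, hc⟩ := exists_smul_of_pr_eq hyx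
    have h0 : (y : Matrix (Fin 2) (Fin 2) F) 1 0 = 0 := hy
    rw [hc, Matrix.smul_apply, h0, smul_zero]
  · intro h
    exact ⟨x, h, rfl⟩

theorem card_BP [Fintype F] : Nat.card (BP F) * Nat.gcd 2 (Fintype.card F - 1) = Fintype.card F * (Fintype.card F - 1) := by
  rw [← card_center (F := F), ← card_BB (F := F)]
  have h1 : Nat.card (BB F) = Nat.card ((pr : SpecialLinearGroup (Fin 2) F →* ProjectiveSpecialLinearGroup (Fin 2) F).comp (BB F).subtype).ker *
      ((pr : SpecialLinearGroup (Fin 2) F →* ProjectiveSpecialLinearGroup (Fin 2) F).comp (BB F).subtype).ker.index :=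
    (Subgroup.card_mul_index _).symm
  have h2 : ((pr : SpecialLinearGroup (Fin 2) F →* ProjectiveSpecialLinearGroup (Fin 2) F).comp (BB F).subtype).ker.index = Nat.card (BP F) := by
    rw [Subgroup.index_ker, MonoidHom.range_comp, Subgroup.range_subtype]
    rfl
  have h3 : Nat.card ((pr : SpecialLinearGroup (Fin 2) F →* ProjectiveSpecialLinearGroup (Fin 2) F).comp (BB F).subtype).ker =
      Nat.card (Subgroup.center (SpecialLinearGroup (Fin 2) F)) := by
    refine Nat.card_congr (Equiv.ofBijective (fun x => (⟨((x : BB F) : SpecialLinearGroup (Fin 2) F), ?_⟩ : Subgroup.center _)) ⟨?_, ?_⟩)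
    · have h5 := x.2
      rw [MonoidHom.mem_ker] at h5
      exact (QuotientGroup.eq_one_iff _).1 h5
    · intro x y hxy
      apply Subtype.ext
      apply Subtype.ext
      exact congrArg (fun z : Subgroup.center (SpecialLinearGroup (Fin 2) F) => (z : SpecialLinearGroup (Fin 2) F)) hxy
    · intro z
      refine ⟨⟨⟨z.1, center_le_BB z.2⟩, ?_⟩, rfl⟩
      rw [MonoidHom.mem_ker]
      exact (QuotientGroup.eq_one_iff _).2 z.2
  rw [h1, h2, h3, mul_comm]

variable [Fintype F]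

/-- `conj (pr x)` is affine iff `x` is upper triangular -/
theorem aff_conj_iff (x : ProjectiveSpecialLinearGroup (Fin 2) F) :
    (∃ (a : Fˣ) (b : F) (σ : F ≃+* F), Aff (MulAut.conj x) a b σ) ↔ x ∈ BP F := by
  obtain ⟨x, rfl⟩ := pr_surjective x
  rw [pr_mem_BP]
  constructor
  · rintro ⟨a, b, σ, h⟩
    obtain ⟨⟨c, hc, h1⟩, -⟩ := Rep.uniq (rep_conj x) h
    have h2 := congrFun (congrFun h1 1) 0
    rw [coe_affM] at h2
    simpa using h2
  · intro h
    obtain ⟨a, b, h1⟩ := (rep_conj x).aff h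
    exact ⟨a, b, 1, h1⟩

/-- the affine semilinear maps -/
def AffG (F : Type*) [Field F] [Fintype F] : Subgroup (MulAut (ProjectiveSpecialLinearGroup (Fin 2) F)) where
  carrier := {α | ∃ (a : Fˣ) (b : F) (σ : F ≃+* F), Aff α a b σ}
  one_mem' := by
    refine ⟨1, 0, 1, ?_⟩
    have h : affM (1 : Fˣ) (0 : F) = 1 := by
      apply Units.ext
      rw [coe_affM]
      ext i j
      fin_cases i <;> fin_cases j <;> simp
    rw [Aff, h]
    exact rep_one
  mul_mem' := by
    rintro α β ⟨a, b, σ, h⟩ ⟨c, d, τ, h'⟩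
    exact ⟨_, _, _, h.mul h'⟩
  inv_mem' := by
    rintro α ⟨a, b, σ, h⟩
    obtain ⟨β, hβ⟩ : ∃ β : MulAut (ProjectiveSpecialLinearGroup (Fin 2) F),
        Aff β (Units.map ((σ⁻¹ : F ≃+* F) : F →* F) a⁻¹) (-((σ⁻¹ : F ≃+* F) (((a⁻¹ : Fˣ) : F) * b))) σ⁻¹ := ⟨_, rfl⟩
    have h1 := h.mul hβ
    have h2 : α * β = 1 := by
      rw [h1]
      have e1 : a * Units.map (σ : F →* F) (Units.map ((σ⁻¹ : F ≃+* F) : F →* F) a⁻¹) = 1 := by
        apply Units.ext
        change (a : F) * σ (σ.symm ((a⁻¹ : Fˣ) : F)) = 1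
        rw [σ.apply_symm_apply, Units.mul_inv]
      have e2 : (a : F) * σ (-((σ⁻¹ : F ≃+* F) (((a⁻¹ : Fˣ) : F) * b))) + b = 0 := by
        rw [map_neg]
        change (a : F) * (-(σ (σ.symm (((a⁻¹ : Fˣ) : F) * b)))) + b = 0
        rw [σ.apply_symm_apply, mul_neg, ← mul_assoc, Units.mul_inv, one_mul, neg_add_cancel]
      rw [e1, e2, mul_inv_cancel]
      have h : affM (1 : Fˣ) (0 : F) = 1 := by
        apply Units.ext
        rw [coe_affM]
        ext i j
        fin_cases i <;> fin_cases j <;> simp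
      rw [h, map_one, map_one, mul_one, map_one]
    rw [inv_eq_of_mul_eq_one_right h2]
    exact ⟨_, _, _, hβ⟩

theorem mem_AffG {α : MulAut (ProjectiveSpecialLinearGroup (Fin 2) F)} :
    α ∈ AffG F ↔ ∃ (a : Fˣ) (b : F) (σ : F ≃+* F), Aff α a b σ := Iff.rfl

/-- the elements of the standard Sylow subgroup -/
theorem mem_U {x : ProjectiveSpecialLinearGroup (Fin 2) F} : x ∈ (upper 2 F).map (pr : SpecialLinearGroup (Fin 2) F →* _) ↔ ∃ t : F, x = pr (X t) := by
  constructor
  · rintro ⟨y, hy, rfl⟩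
    have hy' : y ∈ upper 2 F := hy
    rw [mem_upper] at hy'
    refine ⟨(y : Matrix (Fin 2) (Fin 2) F) 0 1, ?_⟩
    congr 1
    apply Subtype.ext
    rw [coe_X]
    ext i j
    fin_cases i <;> fin_cases j
    · simpa using hy' 0 0 (le_refl _)
    · rfl
    · simpa using hy' 1 0 (by decide)
    · simpa using hy' 1 1 (le_refl _)
  · rintro ⟨t, rfl⟩
    exact ⟨X t, transvection_mem_upper (by decide) t, rfl⟩

/-- a group of automorphisms normalising a nontrivial subgroup of the standard Sylow subgroup is affine -/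
theorem mem_AffG_of_map {R : Subgroup (ProjectiveSpecialLinearGroup (Fin 2) F)} (hR : R ≠ ⊥)
    (hRU : R ≤ (upper 2 F).map (pr : SpecialLinearGroup (Fin 2) F →* _))
    {α : MulAut (ProjectiveSpecialLinearGroup (Fin 2) F)} (hα : ∀ x ∈ R, α x ∈ R) : α ∈ AffG F := by
  obtain ⟨x, hx, hx1⟩ := (Subgroup.ne_bot_iff_exists_ne_one.1 hR) |>.elim fun x hx => (⟨x.1, x.2, fun h => hx (Subtype.ext h)⟩ : ∃ x : ProjectiveSpecialLinearGroup (Fin 2) F, x ∈ R ∧ x ≠ 1)
  obtain ⟨t, ht⟩ := mem_U.1 (hRU hx)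
  obtain ⟨s, hs⟩ := mem_U.1 (hRU (hα x hx))
  subst ht
  refine aff_of_map (t := t) (s := s) ?_ hs
  rintro rfl
  apply hx1
  have : X (0 : F) = 1 := by
    apply Subtype.ext
    rw [coe_X]
    ext i j
    fin_cases i <;> fin_cases j <;> simp
  rw [this, map_one]

/-- the normaliser of the standard Sylow subgroup -/
theorem normalizer_le_BP :
    Subgroup.normalizer (((upper 2 F).map (pr : SpecialLinearGroup (Fin 2) F →* _) : Subgroup (ProjectiveSpecialLinearGroup (Fin 2) F)) :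
      Set (ProjectiveSpecialLinearGroup (Fin 2) F)) ≤ BP F := by
  intro x hx
  rw [← aff_conj_iff]
  apply mem_AffG.1
  refine mem_AffG_of_map (R := (upper 2 F).map (pr : SpecialLinearGroup (Fin 2) F →* _)) ?_ le_rfl ?_
  · intro h
    have h1 := card_map_upper (F := F) 2
    rw [h, Subgroup.card_bot] at h1
    have h2 : 1 < Fintype.card F := Fintype.one_lt_card
    simp at h1
    omega
  · intro y hy
    rw [MulAut.conj_apply]
    exact (Subgroup.mem_normalizer_iff.1 hx y).1 hy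

/-- the order of the normaliser of a Sylow subgroup -/
theorem card_normalizer_dvd (p : ℕ) [Fact p.Prime] [CharP F p] (P : Sylow p (ProjectiveSpecialLinearGroup (Fin 2) F)) :
    Nat.card (Subgroup.normalizer ((P : Subgroup (ProjectiveSpecialLinearGroup (Fin 2) F)) : Set (ProjectiveSpecialLinearGroup (Fin 2) F))) * Nat.gcd 2 (Fintype.card F - 1) ∣
      Fintype.card F * (Fintype.card F - 1) := by
  obtain ⟨S, hS⟩ := exists_sylow (F := F) 2 p
  obtain ⟨g, hg⟩ := MulAction.exists_smul_eq (ProjectiveSpecialLinearGroup (Fin 2) F) P S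
  have h1 : Nat.card (Subgroup.normalizer ((P : Subgroup (ProjectiveSpecialLinearGroup (Fin 2) F)) : Set (ProjectiveSpecialLinearGroup (Fin 2) F))) =
      Nat.card (Subgroup.normalizer ((S : Subgroup (ProjectiveSpecialLinearGroup (Fin 2) F)) : Set (ProjectiveSpecialLinearGroup (Fin 2) F))) := by
    have h2 : Nat.card (Sylow p (ProjectiveSpecialLinearGroup (Fin 2) F)) =
        (Subgroup.normalizer ((P : Subgroup (ProjectiveSpecialLinearGroup (Fin 2) F)) : Set (ProjectiveSpecialLinearGroup (Fin 2) F))).index :=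
      Sylow.card_eq_index_normalizer P
    have h3 : Nat.card (Sylow p (ProjectiveSpecialLinearGroup (Fin 2) F)) =
        (Subgroup.normalizer ((S : Subgroup (ProjectiveSpecialLinearGroup (Fin 2) F)) : Set (ProjectiveSpecialLinearGroup (Fin 2) F))).index :=
      Sylow.card_eq_index_normalizer S
    have h4 := (Subgroup.normalizer ((P : Subgroup (ProjectiveSpecialLinearGroup (Fin 2) F)) : Set (ProjectiveSpecialLinearGroup (Fin 2) F))).card_mul_index
    have h5 := (Subgroup.normalizer ((S : Subgroup (ProjectiveSpecialLinearGroup (Fin 2) F)) : Set (ProjectiveSpecialLinearGroup (Fin 2) F))).card_mul_index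
    rw [← h2] at h4
    rw [← h3] at h5
    exact Nat.eq_of_mul_eq_mul_right Nat.card_pos (h4.trans h5.symm)
  rw [h1, hS, ← card_BP]
  exact Nat.mul_dvd_mul_right (Subgroup.card_dvd_of_le normalizer_le_BP) _

/-- **the order types of the proper subgroups of `PSL₂(q)`** -/
theorem typ (p : ℕ) [Fact p.Prime] [CharP F p] (Z : Subgroup (ProjectiveSpecialLinearGroup (Fin 2) F)) (hZ : Z ≠ ⊤) :
    Typ (Fintype.card F) (Nat.gcd 2 (Fintype.card F - 1)) (Nat.card Z)
      (∃ k, k * Nat.gcd 2 (Fintype.card F - 1) ∣ Fintype.card F + 1 ∧ ((IsCyclic Z ∧ Nat.card Z = k) ∨ Nonempty (Z ≃* DihedralGroup k)))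
      (∃ (P : Sylow p (ProjectiveSpecialLinearGroup (Fin 2) F)) (K : Subgroup (ProjectiveSpecialLinearGroup (Fin 2) F)),
        K ≤ Subgroup.normalizer ((P : Subgroup (ProjectiveSpecialLinearGroup (Fin 2) F)) : Set (ProjectiveSpecialLinearGroup (Fin 2) F)) ∧ Nonempty (Z ≃* K)) := by
  have hq1 : 1 < Fintype.card F := Fintype.one_lt_card
  set q := Fintype.card F with hq
  have hd0 : 0 < Nat.gcd 2 (q - 1) := Nat.gcd_pos_of_pos_left _ (by norm_num)
  have hd1 : Nat.gcd 2 (q - 1) ∣ q - 1 := Nat.gcd_dvd_right _ _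
  have hd2 : Nat.gcd 2 (q - 1) ∣ q + 1 := by
    have : q + 1 = (q - 1) + 2 := by omega
    rw [this]
    exact Nat.dvd_add hd1 (Nat.gcd_dvd_left _ _)
  have hcard : Nat.card (ProjectiveSpecialLinearGroup (Fin 2) F) * Nat.gcd 2 (q - 1) = q * (q ^ 2 - 1) :=
    Cfsg.Agent.ClassicalGeometry.PSL2Basic.card_PSL2_gcd F
  rcases Cfsg.Agent.S0799.result (F := F) rfl p Z with ⟨k, hk, h⟩ | ⟨P, K, hK, h⟩ | ⟨⟨e⟩⟩ | ⟨⟨e⟩⟩ | ⟨⟨e⟩⟩ | ⟨K, i1, i2, m, hm, h⟩
  · rw [← hq] at hk
    rcases hk with hk | hk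
    · have hk' : k * Nat.gcd 2 (q - 1) ∣ q + 1 := by
        rw [Nat.dvd_div_iff_mul_dvd hd2] at hk
        rwa [mul_comm] at hk
      left
      refine ⟨?_, k, hk', h⟩
      rcases h with ⟨-, h⟩ | ⟨⟨e⟩⟩
      · rw [h]
        exact hk'.trans (Dvd.intro_left 2 rfl)
      · rw [Nat.card_congr e.toEquiv, DihedralGroup.nat_card, mul_assoc]
        exact Nat.mul_dvd_mul_left 2 hk'
    · have hk' : k * Nat.gcd 2 (q - 1) ∣ q - 1 := by
        rw [Nat.dvd_div_iff_mul_dvd hd1] at hk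
        rwa [mul_comm] at hk
      right; left
      rcases h with ⟨-, h⟩ | ⟨⟨e⟩⟩
      · rw [h]
        exact hk'.trans (Dvd.intro_left 2 rfl)
      · rw [Nat.card_congr e.toEquiv, DihedralGroup.nat_card, mul_assoc]
        exact Nat.mul_dvd_mul_left 2 hk'
  · right; right; left
    refine ⟨?_, P, K, hK, h⟩
    obtain ⟨e⟩ := h
    rw [Nat.card_congr e.toEquiv]
    exact (Nat.mul_dvd_mul_right (Subgroup.card_dvd_of_le hK) _).trans (card_normalizer_dvd p P)
  · right; right; right; left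
    rw [Nat.card_congr e.toEquiv, nat_card_alternatingGroup, Nat.card_fin]
    decide
  · right; right; right; left
    rw [Nat.card_congr e.toEquiv, Nat.card_perm]
    simp [Nat.factorial]
  · right; right; right; left
    rw [Nat.card_congr e.toEquiv, nat_card_alternatingGroup, Nat.card_fin]
    decide
  · right; right; right; right
    obtain ⟨r, hr⟩ : ∃ r, r = Fintype.card K := ⟨_, rfl⟩
    have hKd := Cfsg.Agent.ClassicalGeometry.PSL2Basic.card_PSL2_gcd (F := K)
    have hKG := Cfsg.Agent.ClassicalGeometry.PSL2Basic.card_PGL2 (F := K)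
    rw [← hr] at hm hKd hKG
    have hdvd : Nat.card Z ∣ r * (r ^ 2 - 1) := by
      rcases h with ⟨⟨e⟩⟩ | ⟨⟨e⟩⟩
      · rw [Nat.card_congr e.toEquiv, ← hKd]
        exact Dvd.intro _ rfl
      · rw [Nat.card_congr e.toEquiv, hKG]
    rcases Nat.lt_or_ge m 2 with h2 | h2
    · exfalso
      have hm1 : m = 1 := by
        rcases Nat.lt_or_ge m 1 with h3 | h3
        · have : m = 0 := by omega
          rw [this, pow_zero] at hm
          omega
        · omega
      rw [hm1, pow_one] at hm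
      apply hZ
      apply Subgroup.eq_top_of_card_eq
      have hle : Nat.card Z ≤ Nat.card (ProjectiveSpecialLinearGroup (Fin 2) F) := Subgroup.card_le_card_group _
      rcases h with ⟨⟨e⟩⟩ | ⟨⟨e⟩⟩
      · rw [Nat.card_congr e.toEquiv]
        rw [hm, ← hcard] at hKd
        exact Nat.eq_of_mul_eq_mul_right hd0 hKd
      · apply le_antisymm hle
        rw [Nat.card_congr e.toEquiv, hKG, hm, ← hcard]
        exact Nat.le_mul_of_pos_right _ hd0
    · rcases Nat.lt_or_ge m 3 with h3 | h3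
      · left
        have hm2 : m = 2 := by omega
        rw [hm2] at hm
        exact ⟨r, hm, hdvd⟩
      · right
        exact ⟨r, m, h3, hm, hdvd⟩

end Cfsg.Agent.H454.Reg.Two

/-!
# S3691, row `PSL₂(q)` (helper454)

* `row_psl2_of` : `Ex T H B`, `¬ T ≤ B`, `T ≃* PSL₂(F)`, `29823000000 < |F|` imply `Concl B`.
-/

set_option autoImplicit false
set_option linter.unusedSectionVars false
set_option linter.style.haveILetI false

namespace Cfsg.Agent.H454.Reg.Two

open Matrix
open Cfsg.Agent.ClassicalGeometry.AutPSL.Root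
open Cfsg.Agent.ClassicalGeometry.AutPSL.Auto
open Cfsg.Agent.ClassicalGeometry.AutPSL.Main
open Cfsg.Agent.ClassicalGeometry.AutPSL.FieldAutTwo
open Cfsg.Agent.ClassicalGeometry.AutPSL.SylowU

universe u

section phi

variable {G : Type u} [Group G] {T : Subgroup G} {F : Type*} [Field F]

/-- the action of `G` on `PSL₂(F)` -/
noncomputable def phi [T.Normal] (e : T ≃* ProjectiveSpecialLinearGroup (Fin 2) F) :
    G →* MulAut (ProjectiveSpecialLinearGroup (Fin 2) F) :=
  (MulAut.congr e).toMonoidHom.comp MulAut.conjNormal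

theorem phi_apply [T.Normal] (e : T ≃* ProjectiveSpecialLinearGroup (Fin 2) F) (g : G) (t : T) :
    phi e g (e t) = e (MulAut.conjNormal g t) := by
  change e (MulAut.conjNormal g (e.symm (e t))) = _
  rw [e.symm_apply_apply]

theorem phi_coe [T.Normal] (e : T ≃* ProjectiveSpecialLinearGroup (Fin 2) F) (t : T) : phi e (t : G) = MulAut.conj (e t) := by
  apply MulEquiv.ext
  intro x
  obtain ⟨s, rfl⟩ := e.surjective x
  rw [phi_apply, MulAut.conj_apply, ← map_inv, ← map_mul, ← map_mul]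
  congr 1

theorem phi_inj [T.Normal] (e : T ≃* ProjectiveSpecialLinearGroup (Fin 2) F) (hc : Subgroup.centralizer (T : Set G) = ⊥) :
    Function.Injective (phi e) := by
  rw [injective_iff_map_eq_one]
  intro g hg
  have : g ∈ Subgroup.centralizer (T : Set G) := by
    rw [Subgroup.mem_centralizer_iff]
    intro t ht
    have h1 : e (MulAut.conjNormal g ⟨t, ht⟩) = e ⟨t, ht⟩ := by
      rw [← phi_apply, hg]
      rfl
    have h2 := congrArg Subtype.val (e.injective h1)
    rw [MulAut.conjNormal_apply] at h2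
    exact (mul_inv_eq_iff_eq_mul.1 h2).symm
  rw [hc] at this
  exact this

theorem phi_trans [T.Normal] (e : T ≃* ProjectiveSpecialLinearGroup (Fin 2) F) (s : ProjectiveSpecialLinearGroup (Fin 2) F) (g : G)
    (x : ProjectiveSpecialLinearGroup (Fin 2) F) :
    phi (e.trans (MulAut.conj s)) g (s * x * s⁻¹) = s * phi e g x * s⁻¹ := by
  obtain ⟨t, rfl⟩ := e.surjective x
  have h1 : s * e t * s⁻¹ = (e.trans (MulAut.conj s)) t := rfl
  rw [h1, phi_apply, phi_apply]
  rfl

/-- `X ∩ T` in `PSL₂(F)` -/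
def ZZ (e : T ≃* ProjectiveSpecialLinearGroup (Fin 2) F) (X : Subgroup G) : Subgroup (ProjectiveSpecialLinearGroup (Fin 2) F) :=
  (X.subgroupOf T).map e.toMonoidHom

theorem mem_ZZ {e : T ≃* ProjectiveSpecialLinearGroup (Fin 2) F} {X : Subgroup G} {t : T} : e t ∈ ZZ e X ↔ (t : G) ∈ X := by
  constructor
  · rintro ⟨s, hs, hst⟩
    have : s = t := e.injective hst
    rw [← this]
    exact hs
  · intro h
    exact ⟨t, h, rfl⟩

theorem card_ZZ (e : T ≃* ProjectiveSpecialLinearGroup (Fin 2) F) (X : Subgroup G) : Nat.card (ZZ e X) = Nat.card (X.subgroupOf T) :=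
  Subgroup.card_map_of_injective e.injective

theorem phi_mem [T.Normal] {e : T ≃* ProjectiveSpecialLinearGroup (Fin 2) F} {X : Subgroup G} {x : G} (hx : x ∈ X)
    {z : ProjectiveSpecialLinearGroup (Fin 2) F} (hz : z ∈ ZZ e X) : phi e x z ∈ ZZ e X := by
  obtain ⟨t, rfl⟩ := e.surjective z
  rw [phi_apply, mem_ZZ, MulAut.conjNormal_apply]
  exact X.mul_mem (X.mul_mem hx (mem_ZZ.1 hz)) (X.inv_mem hx)

/-- the factor of Borel type fixes a point of the projective line, which may be chosen to be `∞` -/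
theorem borel_side [Fintype F] [T.Normal] (e : T ≃* ProjectiveSpecialLinearGroup (Fin 2) F) (p : ℕ) [hp : Fact p.Prime] [CharP F p]
    {X : Subgroup G} (hd : p ∣ Nat.card (ZZ e X))
    (hQ : ∃ (P : Sylow p (ProjectiveSpecialLinearGroup (Fin 2) F)) (K : Subgroup (ProjectiveSpecialLinearGroup (Fin 2) F)),
      K ≤ Subgroup.normalizer ((P : Subgroup (ProjectiveSpecialLinearGroup (Fin 2) F)) : Set (ProjectiveSpecialLinearGroup (Fin 2) F)) ∧
        Nonempty (ZZ e X ≃* K)) :
    ∃ e' : T ≃* ProjectiveSpecialLinearGroup (Fin 2) F, ∀ x ∈ X, phi e' x ∈ AffG F := by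
  obtain ⟨P, K, hK, ⟨i⟩⟩ := hQ
  set Z := ZZ e X with hZ
  -- the subgroup of `p`-elements
  let R0 : Subgroup Z := ((P : Subgroup (ProjectiveSpecialLinearGroup (Fin 2) F)).subgroupOf K).comap i.toMonoidHom
  have hR0 : IsPGroup p R0 := by
    have h1 : IsPGroup p ((P : Subgroup (ProjectiveSpecialLinearGroup (Fin 2) F)).subgroupOf K) :=
      P.2.comap_of_injective K.subtype K.subtype_injective
    exact h1.comap_of_injective i.toMonoidHom i.injective
  have hmem : ∀ z : Z, IsPGroup p (Subgroup.zpowers z) → z ∈ R0 := by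
    intro z hz
    change ((i z : K) : ProjectiveSpecialLinearGroup (Fin 2) F) ∈ (P : Subgroup (ProjectiveSpecialLinearGroup (Fin 2) F))
    have h1 : IsPGroup p (Subgroup.zpowers ((i z : K) : ProjectiveSpecialLinearGroup (Fin 2) F)) := by
      have h2 := hz.map (K.subtype.comp i.toMonoidHom)
      rw [MonoidHom.map_zpowers] at h2
      exact h2
    have h2 := h1.inf_normalizer_sylow P
    have h3 : Subgroup.zpowers ((i z : K) : ProjectiveSpecialLinearGroup (Fin 2) F) ≤
        Subgroup.normalizer ((P : Subgroup (ProjectiveSpecialLinearGroup (Fin 2) F)) : Set (ProjectiveSpecialLinearGroup (Fin 2) F)) := by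
      rw [Subgroup.zpowers_le]
      exact hK (i z).2
    have h4 : Subgroup.zpowers ((i z : K) : ProjectiveSpecialLinearGroup (Fin 2) F) ⊓ (P : Subgroup (ProjectiveSpecialLinearGroup (Fin 2) F)) =
        Subgroup.zpowers ((i z : K) : ProjectiveSpecialLinearGroup (Fin 2) F) := by
      rw [← h2]
      exact inf_eq_left.2 h3
    exact (inf_eq_left.1 h4) (Subgroup.mem_zpowers _)
  -- in `PSL₂(F)`
  let R : Subgroup (ProjectiveSpecialLinearGroup (Fin 2) F) := R0.map Z.subtype
  have hRp : IsPGroup p R := hR0.map _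
  have hRne : R ≠ ⊥ := by
    obtain ⟨z, hz⟩ := exists_prime_orderOf_dvd_card' p hd
    have h1 : z ∈ R0 := by
      apply hmem
      apply IsPGroup.of_card (n := 1)
      rw [Nat.card_zpowers, hz, pow_one]
    intro h
    have h2 : (z : ProjectiveSpecialLinearGroup (Fin 2) F) ∈ R := ⟨z, h1, rfl⟩
    rw [h, Subgroup.mem_bot] at h2
    have h3 : z = 1 := Subtype.ext h2
    rw [h3, orderOf_one] at hz
    exact hp.out.one_lt.ne hz
  have hRinv : ∀ x ∈ X, ∀ r ∈ R, phi e x r ∈ R := by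
    rintro x hx _ ⟨r, hr, rfl⟩
    have h1 : phi e x (r : ProjectiveSpecialLinearGroup (Fin 2) F) ∈ Z := phi_mem hx r.2
    refine ⟨⟨_, h1⟩, hmem _ ?_, rfl⟩
    have h2 : IsPGroup p (Subgroup.zpowers r) := hR0.to_le (by rw [Subgroup.zpowers_le]; exact hr)
    obtain ⟨n, hn⟩ := IsPGroup.iff_card.1 h2
    apply IsPGroup.of_card (n := n)
    rw [Nat.card_zpowers] at hn ⊢
    rw [← hn, ← Subgroup.orderOf_coe, ← Subgroup.orderOf_coe (a := r)]
    exact orderOf_injective (phi e x).toMonoidHom (phi e x).injective _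
  -- conjugate into the standard Sylow subgroup
  obtain ⟨P2, hP2⟩ := hRp.exists_le_sylow
  obtain ⟨S, hS⟩ := exists_sylow (F := F) 2 p
  obtain ⟨s, hs⟩ := MulAction.exists_smul_eq (ProjectiveSpecialLinearGroup (Fin 2) F) P2 S
  refine ⟨e.trans (MulAut.conj s), fun x hx => ?_⟩
  have hRs : R.map (MulAut.conj s).toMonoidHom ≤ (upper 2 F).map (pr : SpecialLinearGroup (Fin 2) F →* _) := by
    rw [← hS, ← hs]
    rintro _ ⟨r, hr, rfl⟩
    exact Subgroup.smul_mem_pointwise_smul _ (MulAut.conj s) _ (hP2 hr)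
  refine mem_AffG_of_map (R := R.map (MulAut.conj s).toMonoidHom) ?_ hRs ?_
  · intro h
    apply hRne
    rw [Subgroup.map_eq_bot_iff_of_injective _ (MulAut.conj s).injective] at h
    exact h
  · rintro _ ⟨r, hr, rfl⟩
    refine ⟨phi e x r, hRinv x hx r hr, ?_⟩
    change s * phi e x r * s⁻¹ = phi (e.trans (MulAut.conj s)) x (s * r * s⁻¹)
    rw [phi_trans]

end phi

/-- the other factor normalises a cyclic group of order at least `3` -/
theorem dihedral_side {S : Type*} [Group S] [Finite S] (Z : Subgroup S) (h100 : 100 < Nat.card Z) {m d : ℕ}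
    (hk : ∃ k, k * d ∣ m ∧ ((IsCyclic Z ∧ Nat.card Z = k) ∨ Nonempty (Z ≃* DihedralGroup k))) :
    ∃ y ∈ Z, 3 ≤ orderOf y ∧ orderOf y ∣ m ∧ ∀ α : MulAut S, (∀ z ∈ Z, α z ∈ Z) → α y ∈ Subgroup.zpowers y := by
  obtain ⟨k, hk, ⟨hc, hcard⟩ | ⟨⟨e⟩⟩⟩ := hk
  · obtain ⟨y, hy⟩ := hc.exists_generator
    have h1 : orderOf (y : S) = k := by
      rw [Subgroup.orderOf_coe, orderOf_eq_card_of_forall_mem_zpowers hy, hcard]
    refine ⟨y, y.2, by rw [h1]; omega, by rw [h1]; exact (Dvd.intro d rfl).trans hk, fun α hα => ?_⟩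
    obtain ⟨j, hj⟩ := hy ⟨α y, hα _ y.2⟩
    exact ⟨j, congrArg Subtype.val hj⟩
  · have hcard : Nat.card Z = 2 * k := by rw [Nat.card_congr e.toEquiv, DihedralGroup.nat_card]
    have hk3 : 3 ≤ k := by omega
    obtain ⟨y, hy⟩ : ∃ y : Z, y = e.symm (DihedralGroup.r 1) := ⟨_, rfl⟩
    have h1 : orderOf (y : S) = k := by
      rw [Subgroup.orderOf_coe, hy, MulEquiv.orderOf_eq, DihedralGroup.orderOf_r_one]
    refine ⟨y, y.2, by rw [h1]; omega, by rw [h1]; exact (Dvd.intro d rfl).trans hk, fun α hα => ?_⟩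
    obtain ⟨w, hw⟩ : ∃ w : Z, w = ⟨α y, hα _ y.2⟩ := ⟨_, rfl⟩
    have h2 : orderOf (e w) = k := by
      rw [MulEquiv.orderOf_eq, ← Subgroup.orderOf_coe, hw, ← h1]
      exact orderOf_injective α.toMonoidHom α.injective _
    have h3 : ∃ j : ℤ, (DihedralGroup.r 1 : DihedralGroup k) ^ j = e w := by
      rcases hew : e w with i | i
      · obtain ⟨n, hn⟩ : ∃ n : ℕ, (n : ZMod k) = i := by
          haveI : NeZero k := ⟨by omega⟩
          exact ⟨i.val, ZMod.natCast_zmod_val i⟩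
        exact ⟨n, by rw [zpow_natCast, DihedralGroup.r_one_pow, hn]⟩
      · exfalso
        rw [hew, DihedralGroup.orderOf_sr] at h2
        omega
    obtain ⟨j, hj⟩ := h3
    refine ⟨j, ?_⟩
    have h4 : y ^ j = w := by
      apply e.injective
      rw [map_zpow, hy, e.apply_symm_apply, hj]
    have h5 := congrArg Subtype.val h4
    rw [hw] at h5
    exact h5

end Cfsg.Agent.H454.Reg.Two

/-!
# S3691, row `PSL₂(q)`: involutions (helper454)
-/

set_option autoImplicit false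
set_option linter.unusedSectionVars false
set_option linter.style.haveILetI false

namespace Cfsg.Agent.H454.Reg.Two

open Matrix
open Cfsg.Agent.ClassicalGeometry.AutPSL.Root
open Cfsg.Agent.ClassicalGeometry.AutPSL.Auto
open Cfsg.Agent.ClassicalGeometry.AutPSL.Main
open Cfsg.Agent.ClassicalGeometry.AutPSL.FieldAutTwo
open Cfsg.Agent.ClassicalGeometry.AutPSL.SylowU

variable {F : Type*} [Field F]

/-- `diag(s, s⁻¹)` -/
def dgm (s : Fˣ) : SpecialLinearGroup (Fin 2) F := ⟨!![(s : F), 0; 0, ((s⁻¹ : Fˣ) : F)], by rw [Matrix.det_fin_two_of]; simp⟩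

theorem dgm_conj (s : Fˣ) (t : F) : dgm s * X t = X ((s : F) * s * t) * dgm s := by
  apply Subtype.ext
  rw [Matrix.SpecialLinearGroup.coe_mul, Matrix.SpecialLinearGroup.coe_mul, coe_X, coe_X]
  ext i j
  fin_cases i <;> fin_cases j <;> simp [dgm, Matrix.mul_apply, Fin.sum_univ_two]
  field_simp

variable [Fintype F]

/-- all involutions of `PSL₂(q)`, `q` even, are conjugate -/
theorem isConj_even (h2 : (2 : F) = 0) {x y : ProjectiveSpecialLinearGroup (Fin 2) F} (hx : orderOf x = 2) (hy : orderOf y = 2) :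
    IsConj x y := by
  have hch : CharP F 2 := CharTwo.of_one_ne_zero_of_two_eq_zero one_ne_zero h2
  haveI : Fact (Nat.Prime 2) := ⟨Nat.prime_two⟩
  have key : ∀ x : ProjectiveSpecialLinearGroup (Fin 2) F, orderOf x = 2 → IsConj x (pr (X (1 : F))) := by
    intro x hx
    have hp : IsPGroup 2 (Subgroup.zpowers x) := by
      apply IsPGroup.of_card (n := 1)
      rw [Nat.card_zpowers, hx, pow_one]
    obtain ⟨P, hP⟩ := hp.exists_le_sylow
    obtain ⟨S, hS⟩ := exists_sylow (F := F) 2 2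
    obtain ⟨s, hs⟩ := MulAction.exists_smul_eq (ProjectiveSpecialLinearGroup (Fin 2) F) P S
    have h1 : s * x * s⁻¹ ∈ (upper 2 F).map (pr : SpecialLinearGroup (Fin 2) F →* _) := by
      rw [← hS, ← hs]
      exact Subgroup.smul_mem_pointwise_smul _ (MulAut.conj s) _ (hP (Subgroup.mem_zpowers x))
    obtain ⟨t, ht⟩ := mem_U.1 h1
    have ht0 : t ≠ 0 := by
      rintro rfl
      have : X (0 : F) = 1 := by
        apply Subtype.ext
        rw [coe_X]
        ext i j
        fin_cases i <;> fin_cases j <;> simp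
      rw [this, map_one, conj_eq_one_iff] at ht
      rw [ht, orderOf_one] at hx
      omega
    -- `t⁻¹ = r²`
    obtain ⟨r, hr⟩ : ∃ r : F, r * r = t⁻¹ := by
      obtain ⟨r, hr⟩ := (FiniteField.isSquare_of_char_two (ringChar.eq_iff.2 hch) t⁻¹)
      exact ⟨r, hr.symm⟩
    have hr0 : r ≠ 0 := by
      rintro rfl
      rw [mul_zero] at hr
      exact inv_ne_zero ht0 hr.symm
    refine IsConj.trans (isConj_iff.2 ⟨s, ht⟩) (isConj_iff.2 ⟨pr (dgm (Units.mk0 r hr0)), ?_⟩)
    rw [← map_mul, dgm_conj, map_mul, mul_inv_cancel_right]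
    congr 2
    rw [Units.val_mk0, hr, inv_mul_cancel₀ ht0]
  exact (key x hx).trans (key y hy).symm

theorem isConj_invol {x y : ProjectiveSpecialLinearGroup (Fin 2) F} (hx : orderOf x = 2) (hy : orderOf y = 2) : IsConj x y := by
  by_cases h2 : (2 : F) = 0
  · exact isConj_even h2 hx hy
  · exact Cfsg.Agent.ClassicalGeometry.SLTwoFour.psl_isConj ((Cfsg.Agent.ClassicalGeometry.PSL2Basic.two_ne_zero_iff_odd F).1 h2) x y hx hy

/-- an affine involution without field part is inner if `q` is even or `q ≡ 1 (mod 4)` -/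
theorem inner_of_invol (h4 : Fintype.card F % 4 ≠ 3) {α : MulAut (ProjectiveSpecialLinearGroup (Fin 2) F)} (hα : orderOf α = 2)
    {a : Fˣ} {b : F} (h : Aff α a b 1) : ∃ x : ProjectiveSpecialLinearGroup (Fin 2) F, α = MulAut.conj x := by
  -- `α² = 1`
  have h1 : α * α = 1 := by
    have h5 := pow_orderOf_eq_one α
    rw [hα] at h5
    rw [← pow_two]
    exact h5
  have hne : α ≠ 1 := by
    rintro rfl
    rw [orderOf_one] at hα
    omega
  have haff1 : ∀ (β : MulAut (ProjectiveSpecialLinearGroup (Fin 2) F)), Aff β 1 0 1 → β = 1 := by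
    intro β hβ
    rw [hβ]
    have h : affM (1 : Fˣ) (0 : F) = 1 := by
      apply Units.ext
      rw [coe_affM]
      ext i j
      fin_cases i <;> fin_cases j <;> simp
    rw [h, map_one, map_one, mul_one, map_one]
  have hone : Aff (1 : MulAut (ProjectiveSpecialLinearGroup (Fin 2) F)) 1 0 1 := by
    have h : affM (1 : Fˣ) (0 : F) = 1 := by
      apply Units.ext
      rw [coe_affM]
      ext i j
      fin_cases i <;> fin_cases j <;> simp
    rw [Aff, h]
    exact rep_one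
  have h2 := h.mul h
  rw [h1] at h2
  obtain ⟨e1, e2, -⟩ := h2.uniq hone
  have e1' : (a : F) * a = 1 := by
    have := congrArg Units.val e1
    exact this
  have e2' : (a : F) * b + b = 0 := e2
  obtain ⟨i, hi⟩ : ∃ i : F, i * i = -1 := by
    obtain ⟨i, hi⟩ := FiniteField.isSquare_neg_one_iff.2 h4
    exact ⟨i, hi.symm⟩
  have hcase : (a : F) = -1 := by
    have h5 : ((a : F) - 1) * ((a : F) + 1) = 0 := by linear_combination e1'
    rcases mul_eq_zero.1 h5 with h6 | h6
    · have h7 : (a : F) = 1 := sub_eq_zero.1 h6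
      by_cases h20 : (2 : F) = 0
      · rw [h7]
        linear_combination h20
      · exfalso
        apply hne
        apply haff1
        have ha1 : a = 1 := Units.ext h7
        have hb0 : b = 0 := by
          rw [h7] at e2'
          have : (2 : F) * b = 0 := by linear_combination e2'
          exact (mul_eq_zero.1 this).resolve_left h20
        rw [ha1, hb0] at h
        exact h
    · exact eq_neg_of_add_eq_zero_left h6
  -- the matrix `[[i, -i b], [0, -i]]`
  obtain ⟨x, hx⟩ : ∃ x : SpecialLinearGroup (Fin 2) F, (x : Matrix (Fin 2) (Fin 2) F) = !![i, -(i * b); 0, -i] :=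
    ⟨⟨!![i, -(i * b); 0, -i], by rw [Matrix.det_fin_two_of]; linear_combination -hi⟩, rfl⟩
  refine ⟨pr x, ?_⟩
  have hi0 : -i ≠ 0 := by
    intro h
    rw [neg_eq_zero] at h
    rw [h, mul_zero] at hi
    exact neg_ne_zero.2 one_ne_zero hi.symm
  have h3 : Rep (MulAut.conj (pr x)) (affM a b) 1 := by
    refine Rep.of_smul (A := Matrix.SpecialLinearGroup.toGL x) hi0 ?_ (rep_conj x)
    rw [coe_affM, hcase]
    change (x : Matrix (Fin 2) (Fin 2) F) = _
    rw [hx]
    ext k l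
    fin_cases k <;> fin_cases l <;> simp
  exact h.trans h3.symm

/-! ### arithmetic of the field part -/

theorem two_pow_dvd_pow_sub_one {x : ℕ} (hx : Odd x) (a : ℕ) : 2 ^ (a + 3) ∣ x ^ 2 ^ (a + 1) - 1 := by
  induction a with
  | zero =>
    obtain ⟨t, rfl⟩ := hx
    have h1 : (2 * t + 1) ^ 2 ^ (0 + 1) - 1 = 4 * (t * (t + 1)) := by
      have : (2 * t + 1) ^ 2 ^ (0 + 1) = 4 * (t * (t + 1)) + 1 := by
        simp only [zero_add, pow_one]
        ring
      rw [this, Nat.add_sub_cancel]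
    rw [h1]
    obtain ⟨s, hs⟩ := Nat.even_mul_succ_self t
    have hs' : t * (t + 1) = s + s := hs
    exact ⟨s, by rw [hs']; ring⟩
  | succ a ih =>
    obtain ⟨y, hy⟩ : ∃ y, y = x ^ 2 ^ (a + 1) := ⟨_, rfl⟩
    have h1 : x ^ 2 ^ (a + 1 + 1) = y * y := by
      rw [hy, pow_succ 2 (a + 1), pow_mul]
      ring
    rw [← hy] at ih
    have hyodd : Odd y := by rw [hy]; exact hx.pow
    have hy1 : 1 ≤ y := hyodd.pos
    rw [h1]
    have h2 : y * y - 1 = (y - 1) * (y + 1) := by
      obtain ⟨t, rfl⟩ : ∃ t, y = t + 1 := ⟨y - 1, by omega⟩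
      simp only [Nat.add_sub_cancel]
      have : (t + 1) * (t + 1) = t * (t + 1 + 1) + 1 := by ring
      rw [this, Nat.add_sub_cancel]
    rw [h2]
    have h3 : 2 ∣ y + 1 := by
      obtain ⟨t, ht⟩ := hyodd
      exact ⟨t + 1, by omega⟩
    have h4 : 2 ^ (a + 1 + 3) = 2 ^ (a + 3) * 2 := by ring
    rw [h4]
    exact Nat.mul_dvd_mul ih h3

/-- the final contradiction: `2 b = q (q - 1)`, `b = c i`, `c` odd, `i ∣ f`, `q = p ^ f` -/
theorem field_contra {p f q b c i : ℕ} (hp : p.Prime) (hq : q = p ^ f) (hq0 : 100 < q) (h4 : q % 4 ≠ 3)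
    (hb : 2 * b = q * (q - 1)) (hbc : b = c * i) (hc : Odd c) (hi : i ∣ f) (hf : 0 < f) : False := by
  have hcop : ∀ j, Nat.Coprime (2 ^ j) c := fun j => Nat.Coprime.pow_left j (Nat.coprime_two_left.2 hc)
  have key : ∀ j, 2 ^ j ∣ b → 2 ^ j ∣ f := by
    intro j hj
    rw [hbc] at hj
    exact ((hcop j).dvd_of_dvd_mul_left hj).trans hi
  rcases hp.eq_two_or_odd' with rfl | hodd
  · -- `q` even
    have h1 : 2 ^ (f - 1) ∣ b := by
      have h2 : 2 * b = 2 * (2 ^ (f - 1) * (q - 1)) := by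
        rw [hb]
        have h3 : q = 2 * 2 ^ (f - 1) := by
          rw [hq, ← pow_succ', Nat.sub_add_cancel hf]
        calc q * (q - 1) = (2 * 2 ^ (f - 1)) * (q - 1) := by rw [← h3]
          _ = _ := by ring
      exact ⟨q - 1, Nat.eq_of_mul_eq_mul_left (by norm_num) h2⟩
    have h2 := Nat.le_of_dvd hf (key _ h1)
    have h3 : 7 ≤ f := by
      by_contra hlt
      have h4 : f ≤ 6 := by omega
      have h5 : 2 ^ f ≤ 2 ^ 6 := Nat.pow_le_pow_right (by norm_num) h4
      norm_num at h5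
      omega
    have h4 : ∀ n, 7 ≤ n → n < 2 ^ (n - 1) := by
      intro n hn
      induction n, hn using Nat.le_induction with
      | base => norm_num
      | succ n hn ih =>
        have h6 : n + 1 - 1 = (n - 1) + 1 := by omega
        rw [h6, pow_succ]
        omega
    have := h4 f h3
    omega
  · -- `q` odd
    have hqodd : Odd q := by rw [hq]; exact hodd.pow
    obtain ⟨a, m, hm, hfm⟩ := Nat.exists_eq_two_pow_mul_odd hf.ne'
    have hdiv : 2 ^ (a + 2) ∣ q - 1 := by
      rcases Nat.eq_zero_or_pos a with h0 | h0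
      · rw [h0]
        have h5 : q % 4 = 1 := by
          obtain ⟨t, ht⟩ := hqodd
          omega
        exact ⟨(q - 1) / 4, by norm_num; omega⟩
      · obtain ⟨a', rfl⟩ : ∃ a', a = a' + 1 := ⟨a - 1, by omega⟩
        have h5 := two_pow_dvd_pow_sub_one (x := p ^ m) hodd.pow a'
        have h6 : (p ^ m) ^ 2 ^ (a' + 1) = q := by
          rw [hq, ← pow_mul, hfm, mul_comm]
        rw [h6] at h5
        exact h5
    have h7 : 2 ^ (a + 1) ∣ b := by
      obtain ⟨t, ht⟩ := hdiv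
      have h8 : 2 * b = 2 * (2 ^ (a + 1) * (q * t)) := by
        rw [hb]
        conv_lhs => rw [ht]
        ring
      exact ⟨q * t, Nat.eq_of_mul_eq_mul_left (by norm_num) h8⟩
    have h9 := key _ h7
    rw [hfm, pow_succ] at h9
    have h10 : 2 ∣ m := Nat.dvd_of_mul_dvd_mul_left (by positivity) h9
    obtain ⟨t, ht⟩ := hm
    omega

end Cfsg.Agent.H454.Reg.Two

/-!
# S3691, row `PSL₂(q)`: the two cases (helper454)

* `row_psl2_of` : `Ex T H B`, `¬ T ≤ B`, `T ≃* PSL₂(F)`, `29823000000 < |F|` imply `Concl B`.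
-/

set_option autoImplicit false
set_option linter.unusedSectionVars false
set_option linter.style.haveILetI false

namespace Cfsg.Agent.H454.Reg.Two

open Matrix
open Cfsg.Agent.ClassicalGeometry.AutPSL.Root
open Cfsg.Agent.ClassicalGeometry.AutPSL.Auto
open Cfsg.Agent.ClassicalGeometry.AutPSL.Main
open Cfsg.Agent.ClassicalGeometry.AutPSL.FieldAutTwo
open Cfsg.Agent.ClassicalGeometry.AutPSL.SylowU

universe u

variable {G : Type u} [Group G] {T H B : Subgroup G} {F : Type} [Field F] [Fintype F]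

/-- the subgroups `ZZ e X` for different `e` are isomorphic -/
theorem ZZ_equiv (e e' : T ≃* ProjectiveSpecialLinearGroup (Fin 2) F) (X : Subgroup G) : Nonempty (ZZ e X ≃* ZZ e' X) := by
  have h1 : Nonempty (X.subgroupOf T ≃* ZZ e X) := ⟨(X.subgroupOf T).equivMapOfInjective e.toMonoidHom e.injective⟩
  have h2 : Nonempty (X.subgroupOf T ≃* ZZ e' X) := ⟨(X.subgroupOf T).equivMapOfInjective e'.toMonoidHom e'.injective⟩
  obtain ⟨i1⟩ := h1
  obtain ⟨i2⟩ := h2
  exact ⟨i1.symm.trans i2⟩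

theorem dih_transfer {Z Z' : Type*} [Group Z] [Group Z'] (i : Z ≃* Z') {d m : ℕ}
    (h : ∃ k, k * d ∣ m ∧ ((IsCyclic Z ∧ Nat.card Z = k) ∨ Nonempty (Z ≃* DihedralGroup k))) :
    ∃ k, k * d ∣ m ∧ ((IsCyclic Z' ∧ Nat.card Z' = k) ∨ Nonempty (Z' ≃* DihedralGroup k)) := by
  obtain ⟨k, hk, h⟩ := h
  refine ⟨k, hk, ?_⟩
  rcases h with ⟨h1, h2⟩ | ⟨⟨e⟩⟩
  · exact Or.inl ⟨isCyclic_of_surjective i i.surjective, by rw [← Nat.card_congr i.toEquiv]; exact h2⟩
  · exact Or.inr ⟨i.symm.trans e⟩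

/-- the numbers -/
structure Num (F : Type) [Field F] [Fintype F] (q d f p : ℕ) : Prop where
  card : Fintype.card F = q
  large : 29823000000 < q
  gcd : d = Nat.gcd 2 (q - 1)
  prime : p.Prime
  pow : q = p ^ f
  fpos : 1 ≤ f

theorem Num.d_pos {q d f p : ℕ} (N : Num F q d f p) : 0 < d := by
  rw [N.gcd]; exact Nat.gcd_pos_of_pos_left _ (by norm_num)

theorem Num.d_le {q d f p : ℕ} (N : Num F q d f p) : d ≤ 2 := by
  rw [N.gcd]; exact Nat.le_of_dvd (by norm_num) (Nat.gcd_dvd_left _ _)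

theorem Num.two_pow {q d f p : ℕ} (N : Num F q d f p) : 2 ^ f ≤ q := by
  rw [N.pow]; exact Nat.pow_le_pow_left N.prime.two_le _

theorem Num.card_S {q d f p : ℕ} (N : Num F q d f p) :
    Nat.card (ProjectiveSpecialLinearGroup (Fin 2) F) * d = q * (q - 1) * (q + 1) := by
  have h1 := Cfsg.Agent.ClassicalGeometry.PSL2Basic.card_PSL2_gcd F
  rw [N.card] at h1
  rw [N.gcd, h1]
  have h2 : q ^ 2 - 1 = (q + 1) * (q - 1) := by
    have := Nat.sq_sub_sq q 1
    rwa [one_pow] at this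
  rw [h2]
  ring

theorem Num.index_le [Finite G] {q d f p : ℕ} (N : Num F q d f p) (hT : T.Normal) (hc : Subgroup.centralizer (T : Set G) = ⊥)
    (e : T ≃* ProjectiveSpecialLinearGroup (Fin 2) F) : T.index ≤ 2 * f := by
  haveI := N.prime
  haveI : Fact p.Prime := ⟨N.prime⟩
  have hchar : CharP F p := by
    obtain ⟨r, hr⟩ := CharP.exists F
    obtain ⟨n, hrp, hn⟩ := FiniteField.card F r
    have : r ∣ p ^ f := by
      rw [← N.pow, ← N.card, hn]
      exact dvd_pow_self r n.pos.ne'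
    have h1 : r = p := (Nat.prime_dvd_prime_iff_eq hrp N.prime).1 (hrp.dvd_of_dvd_pow this)
    rw [← h1]
    exact hr
  have h1 := card_two (F := F) p
  have h2 := Cfsg.Agent.ClassicalGeometry.PSL2Basic.card_PGL2 F
  have h3 := Cfsg.Agent.ClassicalGeometry.PSL2Basic.card_PSL2_gcd F
  have h4 : Nat.card (F ≃+* F) = f := Cfsg.Agent.Lib.FieldAutCard.card_ringAut (p := p) N.fpos (N.card.trans N.pow)
  rw [h2, ← h3, h4, N.card, ← N.gcd] at h1
  have hfinS : Finite (MulAut (ProjectiveSpecialLinearGroup (Fin 2) F)) := inferInstance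
  have h5 : Nat.card G ≤ Nat.card (MulAut (ProjectiveSpecialLinearGroup (Fin 2) F)) :=
    Nat.card_le_card_of_injective (phi e) (phi_inj e hc)
  have h6 := T.card_mul_index
  rw [h1, ← h6, Nat.card_congr e.toEquiv, mul_assoc] at h5
  have h7 := Nat.le_of_mul_le_mul_left h5 Nat.card_pos
  exact h7.trans (Nat.mul_le_mul_right _ N.d_le)

/-- `p` divides the order of the factor of Borel type -/
theorem Num.p_dvd {q d f p x w : ℕ} (N : Num F q d f p) (hw : q * (q - 1) = x * d * w) (hw1 : 1 ≤ w) (hlt : w * d < q) : p ∣ x := by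
  by_contra hp
  have h1 : Nat.Coprime q x := by
    rw [N.pow]
    exact Nat.Coprime.pow_left f ((Nat.Prime.coprime_iff_not_dvd N.prime).2 hp)
  have h2 : q ∣ x * (w * d) := ⟨q - 1, by rw [hw]; ring⟩
  have h3 := h1.dvd_of_dvd_mul_left h2
  have h4 := Nat.le_of_dvd (Nat.mul_pos hw1 N.d_pos) h3
  omega

theorem Num.charP {q d f p : ℕ} (N : Num F q d f p) : CharP F p := by
  obtain ⟨r, hr⟩ := CharP.exists F
  obtain ⟨n, hrp, hn⟩ := FiniteField.card F r
  have : r ∣ p ^ f := by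
    rw [← N.pow, ← N.card, hn]
    exact dvd_pow_self r n.pos.ne'
  have h1 : r = p := (Nat.prime_dvd_prime_iff_eq hrp N.prime).1 (hrp.dvd_of_dvd_pow this)
  rw [← h1]
  exact hr

/-- **case 1** : `H` is the point stabiliser -/
theorem case_one [Finite G] {q d f p : ℕ} (N : Num F q d f p) (h : Ex T H B)
    (e : T ≃* ProjectiveSpecialLinearGroup (Fin 2) F) (hH : ∀ [T.Normal], ∀ x ∈ H, phi e x ∈ AffG F)
    (h100 : 100 < Nat.card (ZZ e B))
    (hB : ∃ k, k * d ∣ q + 1 ∧ ((IsCyclic (ZZ e B) ∧ Nat.card (ZZ e B) = k) ∨ Nonempty (ZZ e B ≃* DihedralGroup k))) :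
    Concl B := by
  haveI := h.normal
  haveI : Fact p.Prime := ⟨N.prime⟩
  haveI := N.charP
  have hq := N.large
  have hd := N.d_pos
  have hBP : Nat.card (BP F) * d = q * (q - 1) := by
    have := card_BP (F := F)
    rw [N.card, ← N.gcd] at this
    exact this
  -- `H` is the stabiliser of the point
  have htop : (AffG F).comap (phi e) ≠ ⊤ := by
    intro htop
    have h1 : BP F = ⊤ := by
      rw [eq_top_iff]
      intro x _
      obtain ⟨t, rfl⟩ := e.surjective x
      rw [← aff_conj_iff, ← mem_AffG, ← phi_coe]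
      have : (t : G) ∈ (AffG F).comap (phi e) := by rw [htop]; trivial
      exact this
    rw [h1, Subgroup.card_top, N.card_S] at hBP
    have h2 : q * (q - 1) * (q + 1) = q * (q - 1) * 1 := by rw [hBP, mul_one]
    have h3 := Nat.eq_of_mul_eq_mul_left (Nat.mul_pos (by omega) (by omega)) h2
    omega
  have hle : H ≤ (AffG F).comap (phi e) := fun x hx => hH x hx
  have heq : H = (AffG F).comap (phi e) := by
    by_contra hne
    exact htop (h.max.2 _ (lt_of_le_of_ne hle hne))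
  have hZ : ZZ e H = BP F := by
    ext x
    obtain ⟨t, rfl⟩ := e.surjective x
    rw [mem_ZZ, ← aff_conj_iff, ← mem_AffG, ← phi_coe]
    conv_lhs => rw [heq]
    rfl
  have hcB : Nat.card B = q + 1 := by
    have h1 := h.card_mul
    rw [← card_ZZ e H, hZ, Nat.card_congr e.toEquiv] at h1
    have h2 : q * (q - 1) * Nat.card B = q * (q - 1) * (q + 1) := by
      rw [← N.card_S, ← h1, ← hBP]
      ring
    exact Nat.eq_of_mul_eq_mul_left (Nat.mul_pos (by omega) (by omega)) h2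
  -- `B` is metacyclic
  obtain ⟨y, hy, hy3, hyq, hya⟩ := dihedral_side (ZZ e B) h100 hB
  obtain ⟨g, rfl⟩ := pr_surjective y
  have hirr : Irr g := irr_of_order N.card p g hy3 hyq
  obtain ⟨C, hC1, hC2, hC3⟩ := metacyclic hirr ((phi e).comp B.subtype)
    ((phi_inj e h.cent).comp B.subtype_injective) fun b => hya _ fun z hz => phi_mem b.2 hz
  refine Or.inl ⟨q, 2, ?_, ?_, C, hC1, hC2, hC3⟩
  · rw [N.pow]
    exact N.prime.isPrimePow.pow (by have := N.fpos; omega)
  · rw [hcB]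
    have := Nat.sq_sub_sq q 1
    rw [one_pow] at this
    exact this.symm

/-- **case 2** : `B` fixes a point -/
theorem case_two [Finite G] {q d f p : ℕ} (N : Num F q d f p) (h : Ex T H B) (h0 : ¬ T ≤ B)
    (e : T ≃* ProjectiveSpecialLinearGroup (Fin 2) F) (hBA : ∀ [T.Normal], ∀ x ∈ B, phi e x ∈ AffG F)
    (h100 : 100 < Nat.card (ZZ e H)) (hHd : Nat.card (ZZ e H) * d ∣ 2 * (q + 1))
    (hH : ∃ k, k * d ∣ q + 1 ∧ ((IsCyclic (ZZ e H) ∧ Nat.card (ZZ e H) = k) ∨ Nonempty (ZZ e H ≃* DihedralGroup k))) :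
    Concl B := by
  classical
  haveI hTn := h.normal
  haveI : Fact p.Prime := ⟨N.prime⟩
  haveI := N.charP
  have hq := N.large
  have hd := N.d_pos
  have hinj := phi_inj e h.cent
  obtain ⟨y, hy, hy3, hyq, hya⟩ := dihedral_side (ZZ e H) h100 hH
  obtain ⟨g, rfl⟩ := pr_surjective y
  have hirr : Irr g := irr_of_order N.card p g hy3 hyq
  obtain ⟨t, ht⟩ := e.surjective (pr g)
  -- membership in `⟨t⟩`
  have hmem : ∀ s : T, (s : G) ∈ Subgroup.zpowers (t : G) ↔ e s ∈ Subgroup.zpowers (pr g) := by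
    intro s
    rw [← ht]
    constructor
    · rintro ⟨k, hk⟩
      refine ⟨k, ?_⟩
      have h1 : t ^ k = s := Subtype.ext hk
      rw [← h1]
      exact (map_zpow e t k).symm
    · rintro ⟨k, hk⟩
      refine ⟨k, ?_⟩
      have h1 : t ^ k = s := by
        apply e.injective
        rw [← hk]
        exact map_zpow e t k
      rw [← h1]
      rfl
  have hzT : Subgroup.zpowers (t : G) ≤ T := by
    rw [Subgroup.zpowers_le]
    exact t.2
  -- the normaliser
  have hstab : ∀ x : G, phi e x (pr g) ∈ Subgroup.zpowers (pr g) → ∀ w ∈ Subgroup.zpowers (t : G), x * w * x⁻¹ ∈ Subgroup.zpowers (t : G) := by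
    rintro x hx _ ⟨k, rfl⟩
    simp only
    rw [← conj_zpow]
    apply Subgroup.zpow_mem
    have h1 : x * (t : G) * x⁻¹ = ((MulAut.conjNormal x t : T) : G) := by rw [MulAut.conjNormal_apply]
    rw [h1, hmem, ← phi_apply, ht]
    exact hx
  have hnorm : ∀ x : G, phi e x (pr g) ∈ Subgroup.zpowers (pr g) → phi e x⁻¹ (pr g) ∈ Subgroup.zpowers (pr g) →
      x ∈ Subgroup.normalizer (Subgroup.zpowers (t : G) : Set G) := by
    intro x hx hx'
    rw [Subgroup.mem_normalizer_iff]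
    intro w
    constructor
    · exact hstab x hx w
    · intro hw
      have h1 := hstab x⁻¹ hx' _ hw
      have h2 : x⁻¹ * (x * w * x⁻¹) * x⁻¹⁻¹ = w := by group
      rwa [h2] at h1
  have hHN : H ≤ Subgroup.normalizer (Subgroup.zpowers (t : G) : Set G) := fun x hx =>
    hnorm x (hya _ fun z hz => phi_mem hx hz) (hya _ fun z hz => phi_mem (H.inv_mem hx) hz)
  have hNtop : Subgroup.normalizer (Subgroup.zpowers (t : G) : Set G) ≠ ⊤ := by
    intro htop
    have hn : (Subgroup.zpowers (t : G)).Normal := Subgroup.normalizer_eq_top_iff.1 htop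
    have hn' : ((Subgroup.zpowers (t : G)).subgroupOf T).Normal := hn.subgroupOf T
    haveI := h.simple
    rcases hn'.eq_bot_or_eq_top with h1 | h1
    · have h2 : t ∈ (Subgroup.zpowers (t : G)).subgroupOf T := Subgroup.mem_zpowers (t : G)
      rw [h1, Subgroup.mem_bot] at h2
      rw [h2, map_one] at ht
      rw [← ht, orderOf_one] at hy3
      omega
    · apply h.nonab
      have h2 : T ≤ Subgroup.zpowers (t : G) := Subgroup.subgroupOf_eq_top.1 h1
      refine ⟨⟨fun a b => ?_⟩⟩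
      obtain ⟨i, hi⟩ := h2 a.2
      obtain ⟨j, hj⟩ := h2 b.2
      apply Subtype.ext
      change (a : G) * b = b * a
      simp only at hi hj
      rw [← hi, ← hj, ← _root_.zpow_add, ← _root_.zpow_add, add_comm]
  have hHeq : H = Subgroup.normalizer (Subgroup.zpowers (t : G) : Set G) := by
    by_contra hne
    exact hNtop (h.max.2 _ (lt_of_le_of_ne hHN hne))
  -- the order of `H ∩ T`
  have hNS : Subgroup.normalizer (Subgroup.zpowers (pr g) : Set (ProjectiveSpecialLinearGroup (Fin 2) F)) ≤ ZZ e H := by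
    intro x hx
    obtain ⟨s, rfl⟩ := e.surjective x
    rw [mem_ZZ, hHeq]
    have key : ∀ x ∈ Subgroup.normalizer (Subgroup.zpowers (pr g) : Set (ProjectiveSpecialLinearGroup (Fin 2) F)),
        ∀ s : T, e s = x → phi e (s : G) (pr g) ∈ Subgroup.zpowers (pr g) := by
      intro x hx s hs
      rw [phi_coe, MulAut.conj_apply, hs]
      exact (Subgroup.mem_normalizer_iff.1 hx _).1 (Subgroup.mem_zpowers _)
    refine hnorm _ (key _ hx s rfl) ?_
    have := key _ (inv_mem hx) s⁻¹ (map_inv e s)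
    exact this
  have hginv : g⁻¹ ≠ g := by
    intro hg
    have h1 : orderOf (pr g) ∣ 2 := by
      apply orderOf_dvd_of_pow_eq_one
      rw [← map_pow, pow_two]
      nth_rw 1 [← hg]
      rw [inv_mul_cancel, map_one]
    have := Nat.le_of_dvd (by norm_num) h1
    omega
  have hHcard : Nat.card (ZZ e H) * d = 2 * (q + 1) := by
    apply le_antisymm (Nat.le_of_dvd (by omega) hHd)
    have h1 := two_mul_le hirr hginv
    rw [N.card, ← N.gcd] at h1
    exact h1.trans (Nat.mul_le_mul_right _ (Subgroup.card_le_of_le hNS))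
  have hcB : 2 * Nat.card B = q * (q - 1) := by
    have h1 := h.card_mul
    rw [← card_ZZ e H, Nat.card_congr e.toEquiv] at h1
    have h2 : (q + 1) * (2 * Nat.card B) = (q + 1) * (q * (q - 1)) := by
      calc (q + 1) * (2 * Nat.card B) = (Nat.card (ZZ e H) * d) * Nat.card B := by rw [hHcard]; ring
        _ = (Nat.card (ZZ e H) * Nat.card B) * d := by ring
        _ = q * (q - 1) * (q + 1) := by rw [h1, N.card_S]
        _ = _ := by ring
    exact Nat.eq_of_mul_eq_mul_left (by omega) h2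
  have hφB : Function.Injective ((phi e).comp B.subtype) := hinj.comp B.subtype_injective
  by_cases h4 : q % 4 = 3
  · -- conclusion (2)
    obtain ⟨φ, hφ1, hφ2⟩ := exists_perm_hom ((phi e).comp B.subtype) hφB fun b => mem_AffG.1 (hBA b b.2)
    exact Or.inr (Or.inl ⟨F, inferInstance, inferInstance, by rw [N.card]; exact h4, by rw [N.card]; exact hcB, φ, hφ1, hφ2⟩)
  · exfalso
    obtain ⟨ψ, hψ⟩ : ∃ ψ : B →* (F ≃+* F), ψ = sg.comp ((phi e).comp B.subtype) := ⟨_, rfl⟩
    have hi : ψ.ker.index ∣ f := by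
      rw [Subgroup.index_ker]
      have h5 : Nat.card (F ≃+* F) = f := Cfsg.Agent.Lib.FieldAutCard.card_ringAut (p := p) N.fpos (N.card.trans N.pow)
      rw [← h5]
      exact Subgroup.card_subgroup_dvd_card _
    refine field_contra N.prime N.pow (by omega) h4 hcB ψ.ker.card_mul_index.symm ?_ hi N.fpos
    -- `ψ.ker` has odd order
    rw [← Nat.not_even_iff_odd, even_iff_two_dvd]
    intro h2
    haveI : Fact (Nat.Prime 2) := ⟨Nat.prime_two⟩
    obtain ⟨b, hb⟩ := exists_prime_orderOf_dvd_card' 2 h2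
    have hb' : orderOf ((b : B) : G) = 2 := by
      rw [Subgroup.orderOf_coe, Subgroup.orderOf_coe, hb]
    obtain ⟨a, c, σ, haff⟩ := mem_AffG.1 (hBA ((b : B) : G) (b : B).2)
    have hσ : σ = 1 := by
      have hψ' : ∀ x : B, ψ x = sg (phi e (x : G)) := fun x => by rw [hψ]; rfl
      have h5 := b.2
      rw [MonoidHom.mem_ker, hψ'] at h5
      rw [← Rep.sg_eq haff]
      exact h5
    subst hσ
    have hord : orderOf (phi e ((b : B) : G)) = 2 := by
      rw [orderOf_injective (phi e) hinj, hb']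
    obtain ⟨x, hx⟩ := inner_of_invol (by rw [N.card]; exact h4) hord haff
    obtain ⟨r, rfl⟩ := e.surjective x
    rw [← phi_coe] at hx
    have hbr : ((b : B) : G) = r := hinj hx
    have hr2 : orderOf (e r) = 2 := by
      rw [MulEquiv.orderOf_eq, ← Subgroup.orderOf_coe, ← hbr, hb']
    -- an involution of `H ∩ T`
    have heven : 2 ∣ Nat.card (ZZ e H) := by
      have hd2 := N.d_le
      rcases Nat.lt_or_ge d 2 with h5 | h5
      · have : d = 1 := by omega
        rw [this, mul_one] at hHcard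
        exact ⟨q + 1, hHcard⟩
      · have h6 : d = 2 := by omega
        have h7 : 2 ∣ q - 1 := by
          rw [← h6, N.gcd]
          exact Nat.gcd_dvd_right _ _
        rw [h6, mul_comm] at hHcard
        have h8 := Nat.eq_of_mul_eq_mul_left (by norm_num) hHcard
        rw [h8]
        omega
    obtain ⟨s, hs⟩ := exists_prime_orderOf_dvd_card' 2 heven
    have hs' : orderOf (s : ProjectiveSpecialLinearGroup (Fin 2) F) = 2 := by rw [Subgroup.orderOf_coe, hs]
    obtain ⟨s1, hs1⟩ := e.surjective (s : ProjectiveSpecialLinearGroup (Fin 2) F)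
    have hs1H : (s1 : G) ∈ H := by
      rw [← mem_ZZ (e := e), hs1]
      exact s.2
    obtain ⟨c', hc'⟩ := isConj_iff.1 (isConj_invol hs' hr2)
    obtain ⟨c1, rfl⟩ := e.surjective c'
    have hconj : (c1 : G) * s1 * (c1 : G)⁻¹ ∈ B := by
      have h5 : c1 * s1 * c1⁻¹ = r := by
        apply e.injective
        rw [map_mul, map_mul, map_inv, hs1, hc']
      have h6 : (c1 : G) * s1 * (c1 : G)⁻¹ = r := congrArg Subtype.val h5
      rw [h6, ← hbr]
      exact (b : B).2
    have h7 := (h.fac h0).not_conj hs1H (c1 : G) hconj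
    have h8 : s1 = 1 := Subtype.ext h7
    rw [h8, map_one] at hs1
    rw [← hs1, orderOf_one] at hs'
    omega

/-- **the row `PSL₂(q)`**, `q > 29823000000` -/
theorem row_psl2_of [Finite G] (h : Ex T H B) (h0 : ¬ T ≤ B) (hq : 29823000000 < Fintype.card F)
    (e : T ≃* ProjectiveSpecialLinearGroup (Fin 2) F) : Concl B := by
  haveI := h.normal
  obtain ⟨p, hp⟩ := CharP.exists F
  obtain ⟨n, hp', hn⟩ := FiniteField.card F p
  haveI : Fact p.Prime := ⟨hp'⟩
  obtain ⟨q, hqdef⟩ : ∃ q, q = Fintype.card F := ⟨_, rfl⟩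
  obtain ⟨d, hddef⟩ : ∃ d, d = Nat.gcd 2 (q - 1) := ⟨_, rfl⟩
  have N : Num F q d n p := ⟨hqdef.symm, by rw [hqdef]; exact hq, hddef, hp', by rw [hqdef, hn], n.pos⟩
  have hfac := h.fac h0
  obtain ⟨ε, hε, -, hcard⟩ := hfac.card0
  have hε2 : ε ≤ 2 * (n : ℕ) := (Nat.le_of_dvd (Nat.pos_of_ne_zero Subgroup.index_ne_zero_of_finite) hε).trans (N.index_le h.normal h.cent e)
  have hne : ∀ X : Subgroup G, ¬ T ≤ X → ZZ e X ≠ ⊤ := by
    intro X hX htop
    apply hX
    intro t ht
    have h1 : e ⟨t, ht⟩ ∈ ZZ e X := by rw [htop]; trivial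
    exact mem_ZZ.1 h1
  have tH := typ p (ZZ e H) (hne H h.not_le)
  have tB := typ p (ZZ e B) (hne B h0)
  rw [← hqdef, ← hddef] at tH tB
  have hnum : Nat.card (ZZ e H) * Nat.card (ZZ e B) * ε * d = q * (q - 1) * (q + 1) := by
    rw [card_ZZ, card_ZZ, hcard, Nat.card_congr e.toEquiv, N.card_S]
  have hnum' : Nat.card (ZZ e B) * Nat.card (ZZ e H) * ε * d = q * (q - 1) * (q + 1) := by
    rw [mul_comm (Nat.card (ZZ e B))]; exact hnum
  rcases types N.fpos N.large N.two_pow hε2 N.d_pos N.d_le hnum Nat.card_pos Nat.card_pos tH tB with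
    ⟨⟨h1, h2⟩, h3, h4⟩ | ⟨⟨h1, h2⟩, h3, h4⟩
  · -- `H` fixes a point
    obtain ⟨w, hw, -, -, hw1, hw2, h100⟩ := bounds N.fpos N.large N.two_pow hε2 N.d_pos N.d_le hnum h1 h3
    obtain ⟨e', he'⟩ := borel_side e p (N.p_dvd hw hw1 hw2) h2
    obtain ⟨i⟩ := ZZ_equiv e e' B
    exact case_one N h e' (fun {_} => he') (by rw [← Nat.card_congr i.toEquiv]; exact h100) (dih_transfer i h4)
  · -- `B` fixes a point
    obtain ⟨w, hw, -, -, hw1, hw2, h100⟩ := bounds N.fpos N.large N.two_pow hε2 N.d_pos N.d_le hnum' h1 h3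
    obtain ⟨e', he'⟩ := borel_side e p (N.p_dvd hw hw1 hw2) h2
    obtain ⟨i⟩ := ZZ_equiv e e' H
    exact case_two N h h0 e' (fun {_} => he') (by rw [← Nat.card_congr i.toEquiv]; exact h100)
      (by rw [← Nat.card_congr i.toEquiv]; exact h3) (dih_transfer i h4)

end Cfsg.Agent.H454.Reg.Two
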